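import Cfsg.Agent.H217.Odm.Eng
import Cfsg.Agent.H257.El.Row.J1
import Cfsg.Agent.H1.J1Real

/-!
# S4785: the row of `J₁` (helper984)
-/

set_option autoImplicit false

namespace Cfsg.Agent.H984.Odm.RowJ1

open Cfsg Cfsg.Agent.OrdDiv Cfsg.Agent.H257.El Cfsg.Agent.H453.OddM Cfsg.Agent.H217.Odm

universe u

theorem row (tab : Cfsg.Agent.OrdDiv.OrderTable.{u}) (known : Cfsg.Agent.H257.El.Known.{u}) {T : Type u} [Group T]
    (h : Cfsg.Spor.IsoJ1 T) : Cfsg.Agent.H453.OddM.Row T := by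
  have hc := NotCT.Orders.j1 h
  have : Finite T := Nat.finite_of_card_ne_zero (by rw [hc]; norm_num)
  obtain ⟨e⟩ := h
  obtain ⟨hs, hcJ⟩ := Cfsg.Agent.SporadicB.J1.Main.isJ1
  have : Finite Spor.J1 := Nat.finite_of_card_ne_zero (by rw [hcJ]; norm_num)
  have hreal : ∀ p : ℕ, p.Prime → p ∣ Nat.card T → RealP T p := by
    intro p hp hd
    have := Fact.mk hp
    obtain ⟨x, hx⟩ := exists_prime_orderOf_dvd_card' (G := T) p hd
    refine ⟨x, hx, ?_⟩
    have h1 : IsReal (e x) := Cfsg.Agent.H1.J1Real.real (e x)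
    have h2 := h1.map e.symm.toMonoidHom
    have h3 : e.symm.toMonoidHom (e x) = x := e.symm_apply_apply x
    rwa [h3] at h2
  refine row_of_empty (n := 175560) (l := [(2, 3), (3, 1), (5, 1), (7, 1), (11, 1), (19, 1)]) (r := 19) (ss := [11])
    tab known hc (by norm_num) (hreal 19 (by norm_num) (by rw [hc]; norm_num)) ?_ (by decide +kernel)
  intro s hs
  rw [List.mem_singleton] at hs
  subst hs
  exact ⟨by norm_num, hreal 11 (by norm_num) (by rw [hc]; norm_num),
    noOrd_congr e (noOrd_of_cent (by norm_num)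
      (fun x hx => OddCyclic.EmpE.Kill.card_cent H413.JOneLocal.isLocal hcJ hx) (by norm_num) (by norm_num))⟩

end Cfsg.Agent.H984.Odm.RowJ1
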